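import Groth.Agent.CycB.RelDim4
import Groth.Agent.VarietyA.LocDim
import Groth.Agent.Flat2D.FibDimNat

/-!
# The local fibre dimension is invariant under base change

`fibreDimAt f x` is attained by the transcendence degree of a generic point of the fibre, and
`fibreDimAt f' x' = fibreDimAt f (g' x')` for a cartesian square.
-/

set_option autoImplicit false

universe u

namespace Groth.Agent.Ega4fib.H172.FibDimBC

open AlgebraicGeometry CategoryTheory CategoryTheory.Limits
open Groth.Agent.CycB.RelDim Groth.Agent.VarietyA.LocDim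

variable {X Y S : Scheme.{u}}

/-- The local fibre dimension is the transcendence degree of some generic point of the fibre
specializing to `x`. -/
theorem exists_fibGeneric_rtd_eq (f : X ⟶ Y) [LocallyOfFiniteType f] (x : X) :
    ∃ z : X, z ⤳ x ∧ f z = f x ∧ FibGeneric f z ∧
      ∃ n : ℕ, rtd f z = n ∧ FlatMor.fibreDimAt f x = n := by
  obtain ⟨n, hn⟩ := Groth.Agent.Flat2D.FibDimNat.exists_nat_fibreDimAt f x
  obtain ⟨z, hz, hfz, hzn⟩ : ∃ z : X, z ⤳ x ∧ f z = f x ∧ rtd f z = n := by
    by_contra hcon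
    push Not at hcon
    have hlt : ∀ z : X, z ⤳ x → f z = f x → ∃ m : ℕ, rtd f z = m ∧ m < n := by
      intro z hz hfz
      obtain ⟨m, hm, hm'⟩ := le_fibreDimAt f x z hz hfz
      rw [hn] at hm'
      have h1 : m ≤ n := by exact_mod_cast hm'
      refine ⟨m, hm, lt_of_le_of_ne h1 ?_⟩
      rintro rfl
      exact hcon z hz hfz hm
    rcases Nat.eq_zero_or_pos n with h0 | h0
    · obtain ⟨m, -, hm⟩ := hlt x (specializes_refl x) rfl
      omega
    · have h2 : FlatMor.fibreDimAt f x ≤ ((n - 1 : ℕ) : WithBot ℕ∞) := by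
        refine fibreDimAt_le f x (n - 1) fun z hz hfz => ?_
        obtain ⟨m, hm, hmn⟩ := hlt z hz hfz
        rw [hm]
        have h4 : m ≤ n - 1 := by omega
        exact_mod_cast h4
      rw [hn] at h2
      have h3 : n ≤ n - 1 := by exact_mod_cast h2
      omega
  obtain ⟨w, hw, hfw, hgw⟩ := exists_fibGeneric_specializes f z
  refine ⟨w, hw.trans hz, hfw.trans hfz, hgw, n, ?_, hn⟩
  refine le_antisymm ?_ ?_
  · obtain ⟨m, hm, hm'⟩ := le_fibreDimAt f x w (hw.trans hz) (hfw.trans hfz)
    rw [hn] at hm'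
    have h1 : m ≤ n := by exact_mod_cast hm'
    rw [hm]
    exact_mod_cast h1
  · rw [← hzn]
    exact rtd_le_of_specializes f hw hfw

theorem rtd_le_of_fibreDimAt (f : X ⟶ Y) [LocallyOfFiniteType f] {x z : X} (h : z ⤳ x)
    (hf : f z = f x) {n : ℕ} (hn : FlatMor.fibreDimAt f x ≤ n) : rtd f z ≤ n := by
  obtain ⟨m, hm, hm'⟩ := le_fibreDimAt f x z h hf
  have h1 : m ≤ n := by exact_mod_cast hm'.trans hn
  rw [hm]
  exact_mod_cast h1

/-- The local fibre dimension does not increase under generization inside a fibre. -/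
theorem fibreDimAt_le_of_specializes (f : X ⟶ Y) [LocallyOfFiniteType f] {x z : X} (h : z ⤳ x)
    (hf : f z = f x) : FlatMor.fibreDimAt f z ≤ FlatMor.fibreDimAt f x := by
  obtain ⟨n, hn⟩ := Groth.Agent.Flat2D.FibDimNat.exists_nat_fibreDimAt f x
  rw [hn]
  refine fibreDimAt_le f z n fun w hw hfw => ?_
  exact rtd_le_of_fibreDimAt f (hw.trans h) (hfw.trans hf) hn.le

/-- Invariance under base change, for the chosen pullback. -/
theorem fibreDimAt_fst (f : X ⟶ S) (g : Y ⟶ S) [LocallyOfFiniteType g] (t : ↥(pullback f g)) :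
    FlatMor.fibreDimAt (pullback.fst f g) t = FlatMor.fibreDimAt g (pullback.snd f g t) := by
  have hc : ∀ t : ↥(pullback f g), f (pullback.fst f g t) = g (pullback.snd f g t) := fun t =>
    congr($(pullback.condition (f := f) (g := g)) t)
  apply le_antisymm
  · obtain ⟨z, hz, hfz, hgz, n, hn, hn'⟩ := exists_fibGeneric_rtd_eq (pullback.fst f g) t
    rw [hn']
    rw [rtd_fst_of_fibGeneric_fst hgz] at hn
    obtain ⟨m, hm, hm'⟩ := le_fibreDimAt g (pullback.snd f g t) (pullback.snd f g z)
      (hz.map (pullback.snd f g).continuous) (by rw [← hc, ← hc, hfz])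
    rw [hn] at hm
    have : n = m := by exact_mod_cast hm
    rw [this]
    exact hm'
  · obtain ⟨y, hy, hfy, hgy, n, hn, hn'⟩ := exists_fibGeneric_rtd_eq g (pullback.snd f g t)
    rw [hn']
    -- lift the generization
    obtain ⟨m, hm, hmc⟩ := exists_flat_fiber_map (f := f) (g := g) (pullback.fst f g t)
    have hy' : y ∈ Set.range (g.fiberι (f (pullback.fst f g t))) := by
      rw [Scheme.Hom.range_fiberι]
      exact hfy.trans (hc t).symm
    obtain ⟨y', rfl⟩ := hy'
    have h1 : g.fiberι (f (pullback.fst f g t)) (m ((pullback.fst f g).asFiber t)) =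
        pullback.snd f g t := by
      have := congr($hmc ((pullback.fst f g).asFiber t))
      simp only [Scheme.Hom.comp_apply] at this
      rw [this, Scheme.Hom.fiberι_asFiber]
    have h2 : y' ⤳ m ((pullback.fst f g).asFiber t) := by
      refine (g.fiberι _).isEmbedding.isInducing.specializes_iff.mp ?_
      rw [h1]; exact hy
    obtain ⟨z, hz, hmz⟩ := exists_specializes_of_flat m h2
    have hzt : (pullback.fst f g).fiberι _ z ⤳ t := by
      have := hz.map ((pullback.fst f g).fiberι _).continuous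
      rwa [Scheme.Hom.fiberι_asFiber] at this
    have hzf : pullback.fst f g ((pullback.fst f g).fiberι _ z) = pullback.fst f g t := by
      have : (pullback.fst f g).fiberι (pullback.fst f g t) z ∈
          Set.range ((pullback.fst f g).fiberι (pullback.fst f g t)) := ⟨z, rfl⟩
      rw [Scheme.Hom.range_fiberι] at this
      exact this
    have hzs : pullback.snd f g ((pullback.fst f g).fiberι _ z) =
        g.fiberι (f (pullback.fst f g t)) y' := by
      have h4 := congr($hmc z)
      simp only [Scheme.Hom.comp_apply] at h4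
      rw [← h4, hmz]
    obtain ⟨w, hw, hfw, hgw⟩ := exists_fibGeneric_specializes (pullback.fst f g)
      ((pullback.fst f g).fiberι _ z)
    have hws : pullback.snd f g w = g.fiberι (f (pullback.fst f g t)) y' := by
      refine hgy _ ?_ ?_
      · rw [← hc, hfw, hc, hzs]
      · rw [← hzs]
        exact hw.map (pullback.snd f g).continuous
    have hrt : rtd (pullback.fst f g) w = n := by
      rw [rtd_fst_of_fibGeneric_fst hgw, hws, hn]
    obtain ⟨k, hk, hk'⟩ := le_fibreDimAt (pullback.fst f g) t w (hw.trans hzt) (hfw.trans hzf)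
    rw [hrt] at hk
    have : n = k := by exact_mod_cast hk
    rw [this]
    exact hk'

theorem rtd_eq_zero_of_isIso {Z : Scheme.{u}} (e : Z ⟶ X) [IsIso e] (z : Z) : rtd e z = 0 :=
  rtd_eq_zero_of_isPreimmersion e z

theorem fibreDimAt_isOpenImmersion_comp {U : Scheme.{u}} (j : U ⟶ X) [IsOpenImmersion j] (f : X ⟶ Y)
    [LocallyOfFiniteType f] (u : U) :
    FlatMor.fibreDimAt (j ≫ f) u = FlatMor.fibreDimAt f (j u) := by
  have hr : ∀ w : U, rtd (j ≫ f) w = rtd f (j w) := by
    intro w
    rw [rtd_comp, rtd_eq_zero_of_isPreimmersion j w, add_zero]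
  apply le_antisymm
  · obtain ⟨z, hz, hfz, hgz, n, hn, hn'⟩ := exists_fibGeneric_rtd_eq (j ≫ f) u
    rw [hn']
    obtain ⟨m, hm, hm'⟩ := le_fibreDimAt f (j u) (j z) (hz.map j.continuous) hfz
    rw [← hr, hn] at hm
    have : n = m := by exact_mod_cast hm
    rw [this]
    exact hm'
  · obtain ⟨y, hy, hfy, hgy, n, hn, hn'⟩ := exists_fibGeneric_rtd_eq f (j u)
    rw [hn']
    have hyj : y ∈ Set.range j := hy.mem_open j.isOpenEmbedding.isOpen_range ⟨u, rfl⟩
    obtain ⟨z, rfl⟩ := hyj
    obtain ⟨m, hm, hm'⟩ := le_fibreDimAt (j ≫ f) u z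
      (j.isOpenEmbedding.isInducing.specializes_iff.mp hy) hfy
    rw [hr, hn] at hm
    have : n = m := by exact_mod_cast hm
    rw [this]
    exact hm'

/-- Invariance under base change for a cartesian square. -/
theorem fibreDimAt_of_isPullback {X' S' : Scheme.{u}} {f : X ⟶ S} {f' : X' ⟶ S'} {g' : X' ⟶ X}
    {g : S' ⟶ S} (h : IsPullback g' f' f g) [LocallyOfFiniteType f] (x' : X') :
    FlatMor.fibreDimAt f' x' = FlatMor.fibreDimAt f (g' x') := by
  let e := h.flip.isoPullback
  have h1 : e.hom ≫ pullback.fst g f = f' := h.flip.isoPullback_hom_fst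
  have h2 : e.hom ≫ pullback.snd g f = g' := h.flip.isoPullback_hom_snd
  have h3 := fibreDimAt_fst g f (e.hom x')
  have h4 := fibreDimAt_isOpenImmersion_comp e.hom (pullback.fst g f) x'
  rw [h1] at h4
  rw [h4, h3, ← Scheme.Hom.comp_apply, h2]

end Groth.Agent.Ega4fib.H172.FibDimBC
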