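import Groth.Prelude.Def_CAlg
import Groth.Prelude.Def_FDesc
import Groth.Agent.VarietyA.StalkBC
import Groth.Agent.VarietyA.SmoothReg
import Groth.Agent.VarietyA.RegSmoothSch
import Groth.Agent.Smoothlim.SmoothLocusBC
import Groth.Agent.Flat2D.DimFlat
import Groth.Agent.Grpsch.FieldDim

/-!
# The geometric condition (R_n) at a point of a scheme locally of finite type over a field

`geomRk_iff`: for `g : Y ⟶ Spec k` locally of finite type, all local rings at points above `y` of the
base changes `Y ⊗ K` satisfy (R_n) if and only if every generization `z` of `y` whose local ring has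
dimension at most `n` is a smooth point of `g`.
-/

set_option autoImplicit false

universe u

namespace Groth.Agent.Ega4fib.H172.GeomRk

open AlgebraicGeometry CategoryTheory CategoryTheory.Limits

/-- Serre's condition (R_n) for a stalk in terms of the generizations of the point. -/
theorem hasRk_stalk_iff (Y : Scheme.{u}) (x : Y) (n : ℕ) :
    LocCoh.HasRk n (Y.presheaf.stalk x) ↔
      ∀ z : Y, z ⤳ x → Order.coheight z ≤ n → IsRegularLocalRing (Y.presheaf.stalk z) := by
  have key : ∀ w : Spec (Y.presheaf.stalk x),
      Order.coheight (Y.fromSpecStalk x w) = w.asIdeal.height := by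
    intro w
    have h1 := ringKrullDim_stalk_eq_coheight (Y.fromSpecStalk x w)
    have h2 := ringKrullDim_eq_of_ringEquiv (VarietyA.StalkBC.stalkFromSpecStalkEquiv x w)
    have h3 := IsLocalization.AtPrime.ringKrullDim_eq_height w.asIdeal
      (Localization.AtPrime w.asIdeal)
    rw [h1, h3] at h2
    exact_mod_cast h2
  constructor
  · intro h z hz hn
    obtain ⟨w, rfl⟩ : z ∈ Set.range (Y.fromSpecStalk x) := by
      rw [Scheme.range_fromSpecStalk]; exact hz
    rw [key] at hn
    have := h w.asIdeal hn
    exact IsRegularLocalRing.of_ringEquiv (VarietyA.StalkBC.stalkFromSpecStalkEquiv x w).symm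
  · intro h p hp hn
    let w : Spec (Y.presheaf.stalk x) := (⟨p, hp⟩ : PrimeSpectrum _)
    have hz : Y.fromSpecStalk x w ⤳ x := by
      have : Y.fromSpecStalk x w ∈ Set.range (Y.fromSpecStalk x) := ⟨w, rfl⟩
      rw [Scheme.range_fromSpecStalk] at this
      exact this
    have := h _ hz (by rw [key]; exact hn)
    exact IsRegularLocalRing.of_ringEquiv (VarietyA.StalkBC.stalkFromSpecStalkEquiv x w)

variable {k : Type u} [Field k] {Y : Scheme.{u}} (g : Y ⟶ Spec (CommRingCat.of k))

theorem isPullback_bc (K : Type u) [Field K] [Algebra k K] :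
    IsPullback (FBase.bcπ g K) (FBase.bcStr g K) g
      (Spec.map (CommRingCat.ofHom (algebraMap k K))) :=
  IsPullback.of_hasPullback _ _

theorem flat_SpecMap (K : Type u) [Field K] [Algebra k K] :
    Flat (Spec.map (CommRingCat.ofHom (algebraMap k K))) := by
  rw [Flat.SpecMap_iff]
  exact RingHom.flat_algebraMap_iff.mpr inferInstance

instance flat_bcπ (K : Type u) [Field K] [Algebra k K] : Flat (FBase.bcπ g K) :=
  MorphismProperty.of_isPullback (isPullback_bc g K).flip (flat_SpecMap K)

instance surjective_bcπ (K : Type u) [Field K] [Algebra k K] : Surjective (FBase.bcπ g K) := by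
  have h1 : Surjective (Spec.map (CommRingCat.ofHom (algebraMap k K))) := by
    constructor
    intro x
    refine ⟨(⊥ : PrimeSpectrum K), ?_⟩
    exact Subsingleton.elim (α := PrimeSpectrum k) _ _
  exact MorphismProperty.of_isPullback (isPullback_bc g K).flip h1

theorem isIntegralHom_bcπ (K : Type u) [Field K] [Algebra k K] [Algebra.IsAlgebraic k K] :
    IsIntegralHom (FBase.bcπ g K) := by
  have h1 : IsIntegralHom (Spec.map (CommRingCat.ofHom (algebraMap k K))) := by
    rw [IsIntegralHom.SpecMap_iff]
    exact algebraMap_isIntegral_iff.mpr inferInstance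
  exact MorphismProperty.of_isPullback (isPullback_bc g K).flip h1

/-- The geometric condition (R_n) at a point. -/
theorem geomRk_iff [LocallyOfFinitePresentation g] (n : ℕ) (y : Y) :
    (∀ (K : Type u) [Field K] [Algebra k K] (x' : ↥(FBase.bc g K)), (FBase.bcπ g K).base x' = y →
      LocCoh.HasRk n ((FBase.bc g K).presheaf.stalk x')) ↔
    ∀ z : Y, z ⤳ y → Order.coheight z ≤ n → z ∈ g.smoothLocus := by
  have hLN : IsLocallyNoetherian Y := LocallyOfFiniteType.isLocallyNoetherian g
  constructor
  · intro h z hz hn
    let K := AlgebraicClosure k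
    obtain ⟨z', rfl⟩ := (FBase.bcπ g K).surjective z
    have hint := isIntegralHom_bcπ g K
    obtain ⟨x', hx', hx'y⟩ : ∃ x' : ↥(FBase.bc g K), z' ⤳ x' ∧ FBase.bcπ g K x' = y := by
      have hcl : IsClosedMap (FBase.bcπ g K) := (FBase.bcπ g K).isClosedMap
      have h1 := hcl.closure_image_eq_of_continuous (FBase.bcπ g K).continuous {z'}
      rw [Set.image_singleton] at h1
      have h2 : y ∈ closure {FBase.bcπ g K z'} := specializes_iff_mem_closure.mp hz
      rw [h1] at h2
      obtain ⟨x', hx', hx'y⟩ := h2
      exact ⟨x', specializes_iff_mem_closure.mpr hx', hx'y⟩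
    have h3 := (hasRk_stalk_iff _ x' n).mp (h K x' hx'y) z' hx' (by
      rw [Grpsch.FieldDim.coheight_eq_of_flat_isIntegralHom (FBase.bcπ g K) z']
      exact hn)
    have hfp : LocallyOfFinitePresentation (FBase.bcStr g K) :=
      MorphismProperty.of_isPullback (isPullback_bc g K) inferInstance
    have h4 := (VarietyA.SmoothReg.mem_smoothLocus_iff_of_perfectField (FBase.bcStr g K) z').mpr h3
    refine (Smoothlim.SmoothLocusBC.mem_smoothLocus_iff_of_isPullback (isPullback_bc g K) z'
      (Or.inr (flat_SpecMap K))).mp h4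
  · intro h K _ _ x' hx'
    rw [hasRk_stalk_iff]
    intro z' hz' hn
    have hfp : LocallyOfFinitePresentation (FBase.bcStr g K) :=
      MorphismProperty.of_isPullback (isPullback_bc g K) inferInstance
    have hLN' : IsLocallyNoetherian (FBase.bc g K) :=
      LocallyOfFiniteType.isLocallyNoetherian (FBase.bcStr g K)
    have h1 := Flat2D.DimFlat.coheight_eq_add_fiber (FBase.bcπ g K) z' (Flat.stalkMap _ z')
    have h2 : Order.coheight (FBase.bcπ g K z') ≤ n :=
      le_trans (by rw [h1]; exact le_self_add) hn
    have h3 : FBase.bcπ g K z' ⤳ y := by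
      rw [← hx']
      exact hz'.map (FBase.bcπ g K).continuous
    have h4 := h _ h3 h2
    have h5 : z' ∈ (FBase.bcStr g K).smoothLocus := by
      refine (Smoothlim.SmoothLocusBC.mem_smoothLocus_iff_of_isPullback (isPullback_bc g K) z'
        (Or.inr (flat_SpecMap K))).mpr h4
    exact VarietyA.RegSmoothSch.isRegularLocalRing_stalk_of_mem_smoothLocus (FBase.bcStr g K) z' h5

end Groth.Agent.Ega4fib.H172.GeomRk
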